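import Mathlib
import Cfsg.Agent.Lib.L5R.Defs2
import Cfsg.Agent.Lib.O8R.Recog

/-!
# recognition of `Ω⁺(10, 2)` (plans/L5R.md)
-/

set_option autoImplicit false
set_option maxHeartbeats 400000
set_option Elab.async false

namespace CfsgLib.L5R

open Subgroup Cfsg CfsgLib.Tech CfsgLib.Held CfsgLib.MOrb CfsgLib.L72 CfsgLib.LargeExtra CfsgLib.ExtraTwo

set_option synthInstance.maxSize 2000 in
theorem rc5_cartan (h : 2 ≤ 5) : (∀ p ∈ [((0 : Fin 5), (1 : Fin 5)), (1, 2), (2, 3), (2, 4)],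
      p.1 ≠ p.2 ∧ (ClSys.rootD h).A p.1 p.2 = -1 ∧ (ClSys.rootD h).A p.2 p.1 = -1) ∧
    ∀ k l : Fin 5, k ≠ l → ((ClSys.rootD h).A k l ≠ 0 → (k, l) ∈ [((0 : Fin 5), (1 : Fin 5)), (1, 2), (2, 3), (2, 4)] ∨
      (l, k) ∈ [((0 : Fin 5), (1 : Fin 5)), (1, 2), (2, 3), (2, 4)]) ∧ ((ClSys.rootD h).A k l = 0 →
      (k, l) ∈ [((0 : Fin 5), (2 : Fin 5)), (0, 3), (0, 4), (1, 3), (1, 4), (3, 4)] ∨
      (l, k) ∈ [((0 : Fin 5), (2 : Fin 5)), (0, 3), (0, 4), (1, 3), (1, 4), (3, 4)]) := by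
  simp only [EG.rootD_A]
  decide

theorem simple_om10 : IsSimpleGroup Om10 := FiLoc.simple_omega (OrthE.qPlus_eq 5) (OrthE.nondeg_qPlus 5) (by simp)

open CfsgLib.RGD CfsgLib.ClSys CfsgLib.CT CfsgLib.O8R in
theorem recog5 {G : Type*} [Group G] [Finite G] (hZ : center G = ⊥) [Nontrivial G] (a n : Fin 5 → G)
    (ha : ∀ i, a i * a i = 1) (hn : ∀ i, n i * n i = 1)
    (hb : ∀ p ∈ [((0 : Fin 5), (1 : Fin 5)), (1, 2), (2, 3), (2, 4)], n p.2 * n p.1 * n p.2 = n p.1 * n p.2 * n p.1 ∧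
      a p.2 = n p.1 * (n p.2 * a p.1 * n p.2) * n p.1 ∧
      a p.1 * a p.2 * (a p.1)⁻¹ * (a p.2)⁻¹ = n p.2 * a p.1 * n p.2 ∧
      Commute (a p.1) (n p.2 * a p.1 * n p.2) ∧ Commute (n p.2 * a p.1 * n p.2) (a p.2))
    (hc : ∀ p ∈ [((0 : Fin 5), (2 : Fin 5)), (0, 3), (0, 4), (1, 3), (1, 4), (3, 4)], Commute (a p.1) (a p.2) ∧
      Commute (a p.1) (n p.2) ∧ Commute (n p.1) (a p.2) ∧ Commute (n p.1) (n p.2))
    (hgen : ∀ K : Subgroup G, (∀ i, a i ∈ K ∧ n i * a i * n i ∈ K) → K = ⊤) : Nonempty (G ≃* Om10) := by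
  have h25 : 2 ≤ 5 := by norm_num
  let S₀ := omegaPlusSys (F := ZMod 2) h25 (by norm_num)
  have hS₀ : S₀.Nondeg := omegaPlusSys_nondeg _ _
  have htop : S₀.grp = ⊤ := omegaPlusSys_grp _ _
  let Φ := rootD h25
  have hL : ∀ p ∈ [((0 : Fin 5), (1 : Fin 5)), (1, 2), (2, 3), (2, 4)],
      LocP S₀ (MonoidHom.snd G _) (fun k t => (op (a k) t, S₀.x (Φ.simple k) t))
      (fun k t => (op (n k * a k * n k) t, S₀.x (Φ.neg (Φ.simple k)) t)) {p.1, p.2} := by
    intro p hp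
    obtain ⟨b1, b2, b3, b4, b5⟩ := hb p hp
    obtain ⟨x, hx, e1, e2, e3, e4⟩ := relA_two (ha p.1) (hn p.1) (hn p.2) b1 rfl b2 b3 b4 b5
    obtain ⟨hne, k1, k2⟩ := (rc5_cartan h25).1 p hp
    obtain ⟨y, hy, d1, d2, d3, d4⟩ := exists_relA_of_bond hS₀ hne k1 k2
    exact locP_of_relA hS₀ hne k1 k2 (fun _ _ => rfl) (fun _ _ => rfl) (relA_prod hx hy)
      (by rw [e1, d1]) (by rw [e2, d2]) (by rw [e3, d3]) (by rw [e4, d4])
  obtain ⟨S, hS, hS'⟩ := exists_stSys_of_pairs hS₀ (θ := MonoidHom.snd G _)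
    (a := fun k t => (op (a k) t, S₀.x (Φ.simple k) t))
    (b := fun k t => (op (n k * a k * n k) t, S₀.x (Φ.neg (Φ.simple k)) t)) (fun k => by
      fin_cases k
      · exact (hL (0, 1) (by simp)).mono (by simp)
      · exact (hL (0, 1) (by simp)).mono (by simp)
      · exact (hL (2, 3) (by simp)).mono (by simp)
      · exact (hL (2, 3) (by simp)).mono (by simp)
      · exact (hL (2, 4) (by simp)).mono (by simp))
    (fun k l hkl h => by
      rcases ((rc5_cartan h25).2 k l hkl).1 h with e | e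
      · exact hL _ e
      · exact Set.pair_comm _ _ ▸ hL _ e)
    fun k l hkl h t v => by
      have hi : Φ.InSub {k} (Φ.simple k) := Φ.inSub_simple_iff.2 rfl
      have hj : Φ.InSub {l} (Φ.simple l) := Φ.inSub_simple_iff.2 rfl
      have hi' := Φ.inSub_neg_iff.2 hi
      have hj' := Φ.inSub_neg_iff.2 hj
      obtain ⟨c1, c2, c4, c3⟩ : Commute (a k) (a l) ∧ Commute (a k) (n l) ∧ Commute (n k) (a l) ∧
          Commute (n k) (n l) := by
        rcases ((rc5_cartan h25).2 k l hkl).2 h with e | e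
        · exact hc _ e
        · obtain ⟨c1, c2, c3, c4⟩ := hc _ e
          exact ⟨c1.symm, c3.symm, c2.symm, c4.symm⟩
      have d2 := (c2.mul_right c1).mul_right c2
      have d3 := (c3.mul_right c4).mul_right c3
      exact ⟨⟨Prod.ext (op_commute c1 t v) (commute_of_orth S₀ hkl h hi hj t v),
        Prod.ext (op_commute d2 t v) (commute_of_orth S₀ hkl h hi hj' t v)⟩,
        Prod.ext (op_commute ((c4.mul_left c1).mul_left c4) t v) (commute_of_orth S₀ hkl h hi' hj t v),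
        Prod.ext (op_commute ((d3.mul_left d2).mul_left d3) t v) (commute_of_orth S₀ hkl h hi' hj' t v)⟩
  obtain ⟨φ, hφ, -⟩ := exists_hom_quot_center hS₀ htop hS fun K hK => hgen K fun k => by
    have := hK k 1
    rwa [(hS' k).1, (hS' k).2] at this
  have := simple_om10
  let ψ : Om10 →* G := ((QuotientGroup.quotientBot (G := G)).toMonoidHom.comp
    (QuotientGroup.quotientMulEquivOfEq hZ).toMonoidHom).comp (φ.comp (QuotientGroup.mk' _))
  have hψ : Function.Surjective ψ := (QuotientGroup.quotientBot.surjective.comp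
    (QuotientGroup.quotientMulEquivOfEq hZ).surjective).comp (hφ.comp (QuotientGroup.mk'_surjective _))
  refine ⟨(MulEquiv.ofBijective ψ ⟨?_, hψ⟩).symm⟩
  rw [← MonoidHom.ker_eq_bot_iff]
  refine (IsSimpleGroup.eq_bot_or_eq_top_of_normal _ inferInstance).resolve_right fun h => ?_
  obtain ⟨g0, hg0⟩ := exists_ne (1 : G)
  obtain ⟨g, hg⟩ := hψ g0
  exact hg0 (hg ▸ (h ▸ Subgroup.mem_top g : g ∈ ψ.ker))


end CfsgLib.L5R
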